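import Mathlib
import Cfsg.Agent.Base
import Cfsg.Agent.Lib.Spec8.Deg

/-! The symmetric group of degree five has an irreducible character of degree six. -/

set_option autoImplicit false

open Cfsg Equiv

namespace H8.Dg

def slp (σ : Perm (ZMod 5)) : ZMod 5 := σ 1 - σ 0
def AffP (σ : Perm (ZMod 5)) : Prop := ∀ x, σ x = slp σ * x + σ 0
instance : DecidablePred AffP := fun σ => by unfold AffP; infer_instance
def lg (a : ZMod 5) : ℕ := if a = 2 then 1 else if a = 4 then 2 else if a = 3 then 3 else 0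

theorem slp_mul {σ : Perm (ZMod 5)} (h : AffP σ) (τ : Perm (ZMod 5)) : slp (σ * τ) = slp σ * slp τ := by
  rw [slp, Perm.mul_apply, Perm.mul_apply, h (τ 1), h (τ 0), slp.eq_1 τ]; ring

theorem slp_ne (σ : Perm (ZMod 5)) : slp σ ≠ 0 := fun h =>
  absurd (σ.injective (sub_eq_zero.1 h)) (by decide)

def Aff : Subgroup (Perm (ZMod 5)) :=
  let M : Submonoid (Perm (ZMod 5)) :=
    { carrier := {σ | AffP σ}
      one_mem' := by change AffP 1; decide
      mul_mem' := fun {σ τ} h1 h2 x => by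
        rw [slp_mul h1, Perm.mul_apply, Perm.mul_apply, h1 (τ x), h1 (τ 0), h2 x]; ring }
  { M with inv_mem' := fun {σ} h => (Submonoid.powers_le.2 h) (mem_powers_iff_mem_zpowers.2
      (inv_mem (Subgroup.mem_zpowers σ))) }

theorem six_mem : 6 ∈ charDegrees (Perm (ZMod 5)) := by
  let ι : ℂˣ := Units.mk0 Complex.I Complex.I_ne_zero
  have hι : orderOf ι = 2 ^ 2 := by
    refine orderOf_eq_prime_pow (fun h => ?_) (Units.ext ?_)
    · have := congrArg Units.val h
      simp [ι] at this; norm_num at this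
    · simp [ι]
  have h1 : ∀ a b : ZMod 5, a ≠ 0 → b ≠ 0 → lg (a * b) ≡ lg a + lg b [MOD 2 ^ 2] := by decide
  let θ : Aff →* ℂˣ := MonoidHom.mk' (fun σ => ι ^ lg (slp σ)) fun σ τ => by
    rw [← pow_add, pow_eq_pow_iff_modEq, hι, Subgroup.coe_mul, slp_mul σ.2]
    exact h1 _ _ (slp_ne _) (slp_ne _)
  have h2 : ∀ x : Perm (ZMod 5), ¬ AffP x → ∃ k, AffP k ∧ AffP (x⁻¹ * k * x) ∧
      ¬ lg (slp (x⁻¹ * k * x)) ≡ lg (slp k) [MOD 2 ^ 2] := by decide +kernel
  have h3 : Aff.index = 6 := by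
    have := Aff.card_mul_index
    rw [show Nat.card Aff = 20 from (Nat.card_eq_fintype_card (α := {σ // AffP σ})).trans
      (by decide +kernel), Nat.card_perm, Nat.card_zmod] at this
    simp only [Nat.factorial] at this
    omega
  rw [← h3]
  refine H8.Deg.index_mem Aff θ fun x hx => ?_
  obtain ⟨k, a1, a2, a3⟩ := h2 x hx
  exact ⟨⟨k, a1⟩, a2, fun e => a3 (hι ▸ pow_eq_pow_iff_modEq.1 e)⟩

end H8.Dg
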